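import Cfsg.Agent.Lib.Helper52.M3.Defs

/-! Ladder M3, rung BASIC. -/

set_option autoImplicit false

namespace Cfsg.Agent.Lib.Helper52.M3

open Equiv Equiv.Perm Subgroup

variable {n : ℕ} {S M : Subgroup (Perm (Fin n))}

theorem R_refl (M : Subgroup (Perm (Fin n))) (x : Fin n) : R M x x :=
  ⟨1, one_mem _, rfl⟩

theorem R_symm {x y : Fin n} (h : R M x y) : R M y x := by
  obtain ⟨g, hg, rfl⟩ := h
  exact ⟨g⁻¹, inv_mem hg, by simp⟩

theorem R_trans {x y z : Fin n} (h : R M x y) (h' : R M y z) : R M x z := by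
  obtain ⟨g, hg, rfl⟩ := h
  obtain ⟨k, hk, rfl⟩ := h'
  exact ⟨k * g, mul_mem hk hg, rfl⟩

theorem basic_conj_mem {g : Perm (Fin n)} (hg : g ∈ M) {k : Perm (Fin n)} (hk : k ∈ N3 M) :
    g * k * g⁻¹ ∈ N3 M := by
  unfold N3 at hk ⊢
  induction hk using closure_induction with
  | mem c hc =>
    apply Subgroup.subset_closure
    refine ⟨mul_mem (mul_mem hg hc.1) (inv_mem hg), ?_⟩
    show (g * c * g⁻¹).cycleType = {3}
    rw [cycleType_conj]
    exact hc.2
  | one => simp
  | mul a b _ _ ha hb =>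
    have : g * (a * b) * g⁻¹ = (g * a * g⁻¹) * (g * b * g⁻¹) := by group
    rw [this]
    exact mul_mem ha hb
  | inv a _ ha =>
    have : g * a⁻¹ * g⁻¹ = (g * a * g⁻¹)⁻¹ := by group
    rw [this]
    exact inv_mem ha

theorem R_map {g : Perm (Fin n)} (hg : g ∈ M) {x y : Fin n} (h : R M x y) : R M (g x) (g y) := by
  obtain ⟨k, hk, rfl⟩ := h
  exact ⟨g * k * g⁻¹, basic_conj_mem hg hk, by simp⟩

theorem R_cyc (h : Cfg n S M) {c : Perm (Fin n)} (hc : c ∈ S) (h3 : c.IsThreeCycle) (x : Fin n) : R M x (c x) :=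
  ⟨c, Subgroup.subset_closure ⟨h.SM hc, h3⟩, rfl⟩

/-- the support of a 3-cycle moving `x`. -/
theorem basic_supp {c : Perm (Fin n)} (h3 : c.IsThreeCycle) {x : Fin n} (hx : c x ≠ x) :
    c.support = {x, c x, c (c x)} := by
  have hcard : c.support.card = 3 := h3.card_support
  have h1 : c (c x) ≠ c x := fun h => hx (c.injective h)
  have h2 : c (c x) ≠ x := by
    intro h
    -- then c^2 x = x, and c^3 = 1 gives c x = x
    have h4 : c ^ 3 = 1 := by
      rw [← h3.orderOf]; exact pow_orderOf_eq_one c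
    have h5 : (c ^ 3) x = x := by rw [h4]; rfl
    have h6 : (c ^ 3) x = c (c (c x)) := by
      simp [pow_succ, Perm.mul_apply]
    rw [h6, h] at h5
    exact hx h5
  symm
  apply Finset.eq_of_subset_of_card_le
  · intro y hy
    simp only [Finset.mem_insert, Finset.mem_singleton] at hy
    rw [Perm.mem_support]
    rcases hy with rfl | rfl | rfl
    · exact hx
    · exact h1
    · intro h; exact h1 (c.injective h)
  · rw [hcard]
    rw [Finset.card_insert_of_notMem, Finset.card_insert_of_notMem, Finset.card_singleton]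
    · simp only [Finset.mem_singleton]; exact fun h => h1 h.symm
    · simp only [Finset.mem_insert, Finset.mem_singleton, not_or]
      exact ⟨fun h => hx h.symm, fun h => h2 h.symm⟩

theorem R_supp (h : Cfg n S M) {c : Perm (Fin n)} (hc : c ∈ S) (h3 : c.IsThreeCycle) {x y : Fin n}
    (hx : c x ≠ x) (hy : c y ≠ y) : R M x y := by
  have hy' : y ∈ c.support := Perm.mem_support.2 hy
  rw [basic_supp h3 hx] at hy'
  simp only [Finset.mem_insert, Finset.mem_singleton] at hy'
  rcases hy' with rfl | rfl | rfl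
  · exact R_refl M _
  · exact R_cyc h hc h3 x
  · exact R_trans (R_cyc h hc h3 x) (R_cyc h hc h3 (c x))

end Cfsg.Agent.Lib.Helper52.M3
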