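import Cfsg.Agent.Lib.Helper52.M3.Defs
import Cfsg.Agent.Lib.Helper14.S3CPRIM

set_option autoImplicit false

namespace Cfsg.Agent.Lib.Helper52.M3

open Equiv Equiv.Perm Subgroup

variable {n : ℕ} {S M : Subgroup (Perm (Fin n))}

theorem not_all_R (h : Cfg n S M) : ∃ x y, ¬ R M x y := by
  by_contra hall
  push Not at hall
  have hn := h.hn
  have hne : ({c | c ∈ M ∧ c.IsThreeCycle} : Set (Perm (Fin n))).Nonempty := by
    obtain ⟨s, hs, hcov⟩ := h.cov
    have : ∃ x : Fin n, x ∉ s := by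
      by_contra hh
      push Not at hh
      have : (Finset.univ : Finset (Fin n)) ⊆ s := fun x _ => hh x
      have := Finset.card_le_card this
      rw [Finset.card_univ, Fintype.card_fin] at this
      omega
    obtain ⟨x, hx⟩ := this
    obtain ⟨c, hc, h3, -⟩ := hcov x hx
    exact ⟨c, h.SM hc, h3⟩
  have htr : MulAction.IsPretransitive (N3 M) (Fin n) := by
    refine ⟨fun x y => ?_⟩
    obtain ⟨g, hg, hgx⟩ := hall x y
    exact ⟨⟨g, hg⟩, hgx⟩
  have hA := Cfsg.Agent.Lib.Helper52.S3C.prim (N3 M) {c | c ∈ M ∧ c.IsThreeCycle}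
    (fun g hg => hg.2) hne rfl htr
  have hle : N3 M ≤ M := by
    unfold N3
    rw [closure_le]
    exact fun c hc => hc.1
  exact h.Mne (le_antisymm h.MA (hA ▸ hle))

end Cfsg.Agent.Lib.Helper52.M3
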