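import Cfsg.Agent.Lib.Helper52.M3.Defs

set_option autoImplicit false

namespace Cfsg.Agent.Lib.Helper52.M3

open Equiv Equiv.Perm Subgroup

variable {n : ℕ} {S M : Subgroup (Perm (Fin n))}

private theorem dj_inv (c : Perm (Fin n)) (U : Finset (Fin n)) (h : c.support ⊆ U) (u : Fin n) :
    c u ∈ U ↔ u ∈ U := by
  by_cases hu : u ∈ c.support
  · exact ⟨fun _ => h hu, fun _ => h (Perm.apply_mem_support.2 hu)⟩
  · rw [Perm.notMem_support.1 hu]

/-- DJ. two 3-cycles of a 3-group moving a common point have the same support -/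
theorem supp_eq (pS : IsPGroup 3 S) {c c' : Perm (Fin n)} (hc : c ∈ S) (hc' : c' ∈ S) (h3 : c.IsThreeCycle)
    (h3' : c'.IsThreeCycle) {x : Fin n} (hx : c x ≠ x) (hx' : c' x ≠ x) : c.support = c'.support := by
  classical
  set K : Subgroup (Perm (Fin n)) := closure {c, c'} with hK
  have hKS : K ≤ S := by
    rw [hK, closure_le]
    rintro g (rfl | rfl)
    · exact hc
    · exact hc'
  have pK : IsPGroup 3 K := pS.to_le hKS
  have hcK : c ∈ K := subset_closure (by simp)
  have hcK' : c' ∈ K := subset_closure (by simp)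
  set U : Finset (Fin n) := c.support ∪ c'.support with hU
  have hinv : ∀ g ∈ K, ∀ u, g u ∈ U ↔ u ∈ U := by
    intro g hg
    induction hg using closure_induction with
    | mem g hg =>
      rcases hg with rfl | rfl
      · exact dj_inv _ U Finset.subset_union_left
      · exact dj_inv _ U Finset.subset_union_right
    | one => intro u; rfl
    | mul a b _ _ iha ihb => intro u; rw [Perm.mul_apply, iha, ihb]
    | inv a _ iha => intro u; rw [← iha (a⁻¹ u), ← Perm.mul_apply, mul_inv_cancel, Perm.one_apply]
  have hxU : x ∈ U := Finset.mem_union_left _ (Perm.mem_support.2 hx)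
  have hO : MulAction.orbit K x = (U : Set (Fin n)) := by
    ext y
    constructor
    · rintro ⟨g, rfl⟩
      exact Finset.mem_coe.2 ((hinv g.1 g.2 x).2 hxU)
    · intro hy
      rcases Finset.mem_union.1 (Finset.mem_coe.1 hy) with hy | hy
      · obtain ⟨i, hi⟩ := h3.isCycle.sameCycle hx (Perm.mem_support.1 hy)
        exact ⟨⟨c ^ i, K.zpow_mem hcK i⟩, hi⟩
      · obtain ⟨i, hi⟩ := h3'.isCycle.sameCycle hx' (Perm.mem_support.1 hy)
        exact ⟨⟨c' ^ i, K.zpow_mem hcK' i⟩, hi⟩
  obtain ⟨k, hk⟩ := pK.card_orbit x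
  have hcard : U.card = 3 ^ k := by
    rw [← hk, hO, Nat.card_coe_set_eq, Set.ncard_coe_finset]
  have h1 : c.support.card = 3 := h3.card_support
  have h2 : c'.support.card = 3 := h3'.card_support
  have h5 : U.card ≤ 5 := by
    have h4 : U.card + (c.support ∩ c'.support).card = c.support.card + c'.support.card :=
      Finset.card_union_add_card_inter c.support c'.support
    have h6 : 0 < (c.support ∩ c'.support).card :=
      Finset.card_pos.2 ⟨x, Finset.mem_inter.2 ⟨Perm.mem_support.2 hx, Perm.mem_support.2 hx'⟩⟩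
    omega
  have hU3 : U.card ≤ 3 := by
    rcases k with _ | _ | k
    · omega
    · omega
    · have : 9 ≤ 3 ^ (k + 1 + 1) := by
        calc 9 = 3 ^ 2 := by norm_num
          _ ≤ 3 ^ (k + 1 + 1) := Nat.pow_le_pow_right (by norm_num) (by omega)
      omega
  have e1 : c.support = U := Finset.eq_of_subset_of_card_le Finset.subset_union_left (by omega)
  have e2 : c'.support = U := Finset.eq_of_subset_of_card_le Finset.subset_union_right (by omega)
  rw [e1, ← e2]

end Cfsg.Agent.Lib.Helper52.M3
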