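import Cfsg.Agent.Lib.Helper52.M3.Defs
import Cfsg.Agent.Lib.Helper52.M3.DJ

set_option autoImplicit false

namespace Cfsg.Agent.Lib.Helper52.M3

open Equiv Equiv.Perm Subgroup

variable {n : ℕ} {S M : Subgroup (Perm (Fin n))}

theorem norm_threeCycle_conj {c : Perm (Fin n)} (h3 : c.IsThreeCycle) (g : Perm (Fin n)) :
    (g * c * g⁻¹).IsThreeCycle := by
  unfold Equiv.Perm.IsThreeCycle at h3 ⊢
  rw [Equiv.Perm.cycleType_conj, h3]

theorem norm_N3_le (S : Subgroup (Perm (Fin n))) : N3 S ≤ S := by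
  unfold N3
  rw [closure_le]
  intro c hc
  exact hc.1

theorem norm_conj_mem {g : Perm (Fin n)} (hg : g ∈ S) {k : Perm (Fin n)} (hk : k ∈ N3 S) :
    g * k * g⁻¹ ∈ N3 S := by
  unfold N3 at hk ⊢
  induction hk using closure_induction with
  | mem c hc =>
    exact subset_closure ⟨S.mul_mem (S.mul_mem hg hc.1) (S.inv_mem hg), norm_threeCycle_conj hc.2 g⟩
  | one => simp
  | mul a b _ _ iha ihb =>
    have : g * (a * b) * g⁻¹ = (g * a * g⁻¹) * (g * b * g⁻¹) := by group
    rw [this]
    exact mul_mem iha ihb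
  | inv a _ iha =>
    have : g * a⁻¹ * g⁻¹ = (g * a * g⁻¹)⁻¹ := by group
    rw [this]
    exact inv_mem iha

theorem norm_le_normalizer (S : Subgroup (Perm (Fin n))) :
    S ≤ normalizer ((N3 S : Subgroup (Perm (Fin n))) : Set (Perm (Fin n))) := by
  intro g hg
  rw [mem_normalizer_iff]
  intro k
  constructor
  · intro hk
    exact norm_conj_mem hg hk
  · intro hk
    have := norm_conj_mem (S.inv_mem hg) hk
    have e : g⁻¹ * (g * k * g⁻¹) * g⁻¹⁻¹ = k := by group
    rwa [e] at this

/-- NORM. -/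
theorem normalizer_le (h : Cfg n S M) :
    normalizer ((N3 S : Subgroup (Perm (Fin n))) : Set (Perm (Fin n))) ⊓ alternatingGroup (Fin n) ≤ M := by
  classical
  apply h.uniq _ (le_inf (norm_le_normalizer S) (h.SM.trans h.MA)) inf_le_right
  intro hH
  obtain ⟨s, hs, hcov⟩ := h.cov
  have hn := h.hn
  -- a covered point
  obtain ⟨x, hx⟩ : ∃ x : Fin n, x ∉ s := by
    by_contra hcon
    push Not at hcon
    have : (Finset.univ : Finset (Fin n)) ⊆ s := fun x _ => hcon x
    have := Finset.card_le_card this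
    rw [Finset.card_univ, Fintype.card_fin] at this
    omega
  obtain ⟨c, hcS, h3, hcx⟩ := hcov x hx
  have hsupp : c.support.card = 3 := h3.card_support
  obtain ⟨t, ht⟩ : ∃ t : Fin n, t ∉ c.support := by
    by_contra hcon
    push Not at hcon
    have : (Finset.univ : Finset (Fin n)) ⊆ c.support := fun x _ => hcon x
    have := Finset.card_le_card this
    rw [Finset.card_univ, Fintype.card_fin] at this
    omega
  obtain ⟨t', ht'⟩ : ∃ t' : Fin n, t' ∉ insert t c.support := by
    by_contra hcon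
    push Not at hcon
    have : (Finset.univ : Finset (Fin n)) ⊆ insert t c.support := fun x _ => hcon x
    have := Finset.card_le_card this
    rw [Finset.card_univ, Fintype.card_fin, Finset.card_insert_of_notMem ht] at this
    omega
  rw [Finset.mem_insert, not_or] at ht'
  obtain ⟨htt', ht's⟩ := ht'
  have hct : c t = t := by
    by_contra hne
    exact ht (Equiv.Perm.mem_support.2 hne)
  have hxs : x ∈ c.support := Equiv.Perm.mem_support.2 hcx
  have hcxs : c x ∈ c.support := Equiv.Perm.apply_mem_support.2 hxs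
  have hxt : x ≠ t := fun e => ht (e ▸ hxs)
  have hxt' : x ≠ t' := fun e => ht's (e ▸ hxs)
  have hcxt : c x ≠ t := fun e => ht (e ▸ hcxs)
  have hcxt' : c x ≠ t' := fun e => ht's (e ▸ hcxs)
  set g : Perm (Fin n) := swap x t * swap t t' with hg
  have hgA : g ∈ alternatingGroup (Fin n) := by
    rw [Equiv.Perm.mem_alternatingGroup, hg, map_mul, Equiv.Perm.sign_swap hxt,
      Equiv.Perm.sign_swap (Ne.symm htt')]
    rfl
  have hgx : g x = t := by
    rw [hg, Equiv.Perm.mul_apply, Equiv.swap_apply_of_ne_of_ne hxt hxt', Equiv.swap_apply_left]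
  have hgcx : g (c x) = c x := by
    rw [hg, Equiv.Perm.mul_apply, Equiv.swap_apply_of_ne_of_ne hcxt hcxt',
      Equiv.swap_apply_of_ne_of_ne hcx hcxt]
  have hginv : g⁻¹ (c x) = c x := by
    rw [Equiv.Perm.inv_eq_iff_eq, hgcx]
  have hginvt : g⁻¹ t = x := by
    rw [Equiv.Perm.inv_eq_iff_eq, hgx]
  have hgN : g ∈ normalizer ((N3 S : Subgroup (Perm (Fin n))) : Set (Perm (Fin n))) := by
    have : g ∈ normalizer ((N3 S : Subgroup (Perm (Fin n))) : Set (Perm (Fin n))) ⊓
        alternatingGroup (Fin n) := by rw [hH]; exact hgA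
    exact this.1
  have hcN : c ∈ N3 S := subset_closure ⟨hcS, h3⟩
  have hc'N : g * c * g⁻¹ ∈ N3 S := (mem_normalizer_iff.1 hgN c).1 hcN
  have hc'S : g * c * g⁻¹ ∈ S := norm_N3_le S hc'N
  have hmove1 : c (c x) ≠ c x := fun e => hcx (c.injective e)
  have hmove2 : (g * c * g⁻¹) (c x) ≠ c x := by
    rw [Equiv.Perm.mul_apply, Equiv.Perm.mul_apply, hginv]
    intro e
    have : c (c x) = g⁻¹ (c x) := by rw [Equiv.Perm.eq_inv_iff_eq]; exact e
    rw [hginv] at this
    exact hmove1 this
  have heq := supp_eq h.pS hcS hc'S h3 (norm_threeCycle_conj h3 g) hmove1 hmove2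
  have htmem : t ∈ (g * c * g⁻¹).support := by
    rw [Equiv.Perm.mem_support, Equiv.Perm.mul_apply, Equiv.Perm.mul_apply, hginvt, hgcx]
    exact hcxt
  rw [← heq] at htmem
  exact ht htmem

end Cfsg.Agent.Lib.Helper52.M3
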