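import Cfsg.Agent.Lib.Helper52.M3.Defs

set_option autoImplicit false

namespace Cfsg.Agent.Lib.Helper52.M3

open Equiv Equiv.Perm Subgroup

variable {n : ℕ} {S M : Subgroup (Perm (Fin n))}

theorem eqi_cube {σ : Perm (Fin n)} (h3 : σ.IsThreeCycle) (x : Fin n) : σ (σ (σ x)) = x := by
  have h : σ ^ 3 = 1 := by rw [← h3.orderOf, pow_orderOf_eq_one]
  have := congrArg (fun τ : Perm (Fin n) => τ x) h
  simpa [pow_succ, Perm.mul_apply] using this

theorem eqi_cases {σ : Perm (Fin n)} (h3 : σ.IsThreeCycle) {x y : Fin n} (hx : σ x ≠ x)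
    (hy : σ y ≠ y) : y = x ∨ y = σ x ∨ y = σ (σ x) := by
  obtain ⟨i, hi⟩ := h3.isCycle.exists_pow_eq hx hy
  rw [← pow_mod_orderOf, h3.orderOf] at hi
  have hlt : i % 3 < 3 := Nat.mod_lt _ (by norm_num)
  generalize i % 3 = j at hi hlt
  interval_cases j
  · left; simpa using hi.symm
  · right; left; simpa using hi.symm
  · right; right; simpa [pow_succ, Perm.mul_apply] using hi.symm

theorem eqi_sq_ne {σ : Perm (Fin n)} (h3 : σ.IsThreeCycle) {x : Fin n} (hx : σ x ≠ x) :
    σ (σ x) ≠ x := by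
  intro h
  have := eqi_cube h3 x
  rw [h] at this
  exact hx this

theorem eqi_aux {c c' : Perm (Fin n)} (h3 : c.IsThreeCycle) (h3' : c'.IsThreeCycle)
    (hs : c.support = c'.support) {x : Fin n} (hx : c x ≠ x) (hxx : c' x = c x) : c' = c := by
  have hx' : c' x ≠ x := by rw [hxx]; exact hx
  have hmem : ∀ y, c' y ≠ y ↔ c y ≠ y := fun y => by
    rw [← Perm.mem_support, ← Perm.mem_support, hs]
  have h2 : c' (c' x) = c (c x) := by
    have h4 : c' (c' (c' x)) ≠ c' (c' x) := fun h => hx' (c'.injective (c'.injective h))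
    rcases eqi_cases h3 hx ((hmem _).1 h4) with h | h | h
    · exact absurd h (eqi_sq_ne h3' hx')
    · rw [← hxx] at h
      exact absurd (c'.injective h) hx'
    · exact h
  ext y
  congr 1
  by_cases hy : c y = y
  · have : c' y = y := by
      by_contra h
      exact (hmem y).1 h hy
    rw [this, hy]
  · rcases eqi_cases h3 hx hy with rfl | rfl | rfl
    · exact hxx
    · rw [← hxx, h2, hxx]
    · rw [← h2, eqi_cube h3', h2, eqi_cube h3]

/-- EQI. two 3-cycles with the same support are equal or inverse -/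
theorem eq_or_inv {c c' : Perm (Fin n)} (h3 : c.IsThreeCycle) (h3' : c'.IsThreeCycle)
    (hs : c.support = c'.support) : c' = c ∨ c' = c⁻¹ := by
  have hne : c.support.Nonempty := by
    rw [← Finset.card_pos, h3.card_support]; norm_num
  obtain ⟨x, hx⟩ := hne
  have hx1 : c x ≠ x := Perm.mem_support.1 hx
  have hx' : c' x ≠ x := Perm.mem_support.1 (hs ▸ hx)
  have h4 : c (c' x) ≠ c' x := by
    have : c' x ∈ c'.support := Perm.apply_mem_support.2 (hs ▸ hx)
    rw [← hs] at this
    exact Perm.mem_support.1 this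
  rcases eqi_cases h3 hx1 h4 with h | h | h
  · exact absurd h hx'
  · left; exact eqi_aux h3 h3' hs hx1 h
  · right
    have hinv : c⁻¹ x = c (c x) := by
      rw [Perm.inv_eq_iff_eq, eqi_cube h3]
    refine eqi_aux h3.inv h3' (by rw [Perm.support_inv, hs]) ?_ (by rw [h, hinv])
    rw [hinv]; exact eqi_sq_ne h3 hx1

end Cfsg.Agent.Lib.Helper52.M3
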