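import Cfsg.Agent.Lib.Helper52.M3.Defs
import Cfsg.Agent.Lib.Helper52.M3.DJ
import Cfsg.Agent.Lib.Helper52.M3.EQI

set_option autoImplicit false

namespace Cfsg.Agent.Lib.Helper52.M3

open Equiv Equiv.Perm Subgroup

variable {n : ℕ} {S M : Subgroup (Perm (Fin n))}

/-- the points of a 3-cycle -/
theorem swap_pts {c : Perm (Fin n)} (h3 : c.IsThreeCycle) {x : Fin n} (hx : c x ≠ x) :
    c (c (c x)) = x ∧ c (c x) ≠ x ∧ (∀ u, c u ≠ u → u = x ∨ u = c x ∨ u = c (c x)) := by
  have hp : c ^ 3 = 1 := by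
    rw [← h3.orderOf]; exact pow_orderOf_eq_one c
  have h1 : c (c (c x)) = x := by
    have := congrArg (fun f : Perm (Fin n) => f x) hp
    simpa [pow_succ] using this
  have h2 : c (c x) ≠ x := by
    intro h
    apply hx
    have := congrArg c h
    rw [h1] at this
    exact this.symm
  refine ⟨h1, h2, ?_⟩
  have hcard : c.support.card = 3 := card_support_eq_three_iff.2 h3
  have hsub : ({x, c x, c (c x)} : Finset (Fin n)) ⊆ c.support := by
    intro u hu
    simp only [Finset.mem_insert, Finset.mem_singleton] at hu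
    rw [mem_support]
    rcases hu with rfl | rfl | rfl
    · exact hx
    · exact fun h => hx (c.injective h)
    · exact fun h => hx (c.injective (c.injective h))
  have hc3 : ({x, c x, c (c x)} : Finset (Fin n)).card = 3 := by
    rw [Finset.card_insert_of_notMem, Finset.card_insert_of_notMem, Finset.card_singleton]
    · simp only [Finset.mem_singleton]
      exact fun h => hx (c.injective h.symm)
    · simp only [Finset.mem_insert, Finset.mem_singleton, not_or]
      exact ⟨fun h => hx h.symm, fun h => h2 h.symm⟩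
  have heq := Finset.eq_of_subset_of_card_le hsub (by rw [hcard, hc3])
  intro u hu
  have : u ∈ c.support := mem_support.2 hu
  rw [← heq] at this
  simpa using this

/-- three pairwise disjoint 3-cycles with base points -/
structure SwapD (c : Fin 3 → Perm (Fin n)) (p : Fin 3 → Fin n) : Prop where
  t : ∀ k, (c k).IsThreeCycle
  m : ∀ k, c k (p k) ≠ p k
  d : ∀ k l, k ≠ l → ∀ u, c k u ≠ u → c l u = u

/-- the nine points -/
def swapPhi (c : Fin 3 → Perm (Fin n)) (p : Fin 3 → Fin n) (q : Fin 3 × Fin 3) : Fin n :=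
  ((c q.1) ^ (q.2 : ℕ)) (p q.1)

variable {c : Fin 3 → Perm (Fin n)} {p : Fin 3 → Fin n}

theorem swap_shift (H : SwapD c p) (k i : Fin 3) :
    c k (swapPhi c p (k, i)) = swapPhi c p (k, i + 1) := by
  have h1 := (swap_pts (H.t k) (H.m k)).1
  fin_cases i
  · simp [swapPhi]
  · show c k (((c k) ^ 1) (p k)) = ((c k) ^ 2) (p k)
    simp [pow_succ]
  · show c k (((c k) ^ 2) (p k)) = ((c k) ^ 0) (p k)
    simp [pow_succ, h1]

theorem swap_moved (H : SwapD c p) (k i : Fin 3) :
    c k (swapPhi c p (k, i)) ≠ swapPhi c p (k, i) := by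
  intro h
  apply H.m k
  apply ((c k) ^ (i : ℕ)).injective
  have : c k * (c k) ^ (i : ℕ) = (c k) ^ (i : ℕ) * c k := by
    rw [← pow_succ, ← pow_succ']
  have h2 := congrArg (fun f : Perm (Fin n) => f (p k)) this
  simp only [mul_apply] at h2
  rw [← h2]
  exact h

theorem swap_fixed (H : SwapD c p) {k l : Fin 3} (hkl : k ≠ l) (i : Fin 3) :
    c l (swapPhi c p (k, i)) = swapPhi c p (k, i) :=
  H.d k l hkl _ (swap_moved H k i)

theorem swap_inj (H : SwapD c p) : Function.Injective (swapPhi c p) := by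
  rintro ⟨k, i⟩ ⟨l, j⟩ h
  by_cases hkl : k = l
  · subst hkl
    obtain ⟨h1, h2, -⟩ := swap_pts (H.t k) (H.m k)
    have h0 := H.m k
    have h3 : c k (c k (p k)) ≠ c k (p k) := fun h => h0 ((c k).injective h)
    fin_cases i <;> fin_cases j <;> simp [swapPhi, pow_succ] at h ⊢
    · exact h0 h.symm
    · exact h2 h.symm
    · exact h0 h
    · exact h0 h.symm
    · exact h2 h
    · exact h0 h
  · exfalso
    have := swap_fixed H hkl i
    rw [h] at this
    exact swap_moved H l j this

theorem swap_range (H : SwapD c p) (k : Fin 3) {u : Fin n} (hu : c k u ≠ u) :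
    ∃ i, swapPhi c p (k, i) = u := by
  rcases (swap_pts (H.t k) (H.m k)).2.2 u hu with rfl | rfl | rfl
  · exact ⟨0, by simp [swapPhi]⟩
  · exact ⟨1, by simp [swapPhi]⟩
  · exact ⟨2, by simp [swapPhi, pow_succ]⟩

/-- the embedding -/
def swapE (H : SwapD c p) : Fin 3 × Fin 3 ↪ Fin n := ⟨swapPhi c p, swap_inj H⟩

/-- the model of `c k` -/
def swapS (k : Fin 3) : Perm (Fin 3 × Fin 3) := prodExtendRight k (finRotate 3)

/-- the model of `g` -/
def swapPi : Perm (Fin 3 × Fin 3) :=
  swap (0, 0) (1, 0) * swap (0, 1) (1, 1) * swap (0, 2) (1, 2) * swap (2, 0) (2, 1)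

theorem swap_c_eq (H : SwapD c p) (k : Fin 3) : c k = (swapS k).viaFintypeEmbedding (swapE H) := by
  ext u
  congr 1
  by_cases hu : u ∈ Set.range (swapE H)
  · obtain ⟨⟨l, i⟩, rfl⟩ := hu
    rw [viaFintypeEmbedding_apply_image]
    by_cases hkl : l = k
    · subst hkl
      rw [swapS, prodExtendRight_apply_eq]
      show c l (swapPhi c p (l, i)) = swapPhi c p (l, finRotate 3 i)
      rw [swap_shift H, finRotate_apply]
    · rw [swapS, prodExtendRight_apply_ne _ hkl]
      exact swap_fixed H hkl i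
  · rw [viaFintypeEmbedding_apply_notMem_range _ _ hu]
    by_contra h
    obtain ⟨i, hi⟩ := swap_range H k h
    exact hu ⟨(k, i), hi⟩

theorem swap_via_mul (E : Fin 3 × Fin 3 ↪ Fin n) (a b : Perm (Fin 3 × Fin 3)) :
    a.viaFintypeEmbedding E * b.viaFintypeEmbedding E = (a * b).viaFintypeEmbedding E := by
  simp [viaFintypeEmbedding, extendDomain_mul]

theorem swap_via_inv (E : Fin 3 × Fin 3 ↪ Fin n) (a : Perm (Fin 3 × Fin 3)) :
    (a.viaFintypeEmbedding E)⁻¹ = (a⁻¹).viaFintypeEmbedding E := by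
  simp [viaFintypeEmbedding, extendDomain_inv]

theorem swap_rel0 : swapPi * swapS 0 * swapPi⁻¹ = swapS 1 := by decide +kernel
theorem swap_rel1 : swapPi * swapS 1 * swapPi⁻¹ = swapS 0 := by decide +kernel
theorem swap_rel2 : swapPi * swapS 2 * swapPi⁻¹ = (swapS 2)⁻¹ := by decide +kernel
theorem swap_invol : swapPi⁻¹ = swapPi := by decide +kernel
theorem swap_sign : sign swapPi = 1 := by decide +kernel


theorem swap_main (pS : IsPGroup 3 S) (H : SwapD c p) (hS : ∀ k, c k ∈ S) :
    ∃ g ∈ normalizer ((N3 S : Subgroup (Perm (Fin n))) : Set (Perm (Fin n))) ⊓ alternatingGroup (Fin n),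
      g (p 0) = p 1 ∧ ∃ w, c 2 w ≠ w ∧ g w = w := by
  set E := swapE H with hE
  set g : Perm (Fin n) := swapPi.viaFintypeEmbedding E with hg
  have hginv : g⁻¹ = g := by rw [hg, swap_via_inv, swap_invol]
  have hN : ∀ k, c k ∈ N3 S := fun k => subset_closure ⟨hS k, H.t k⟩
  have r0 : g * c 0 * g⁻¹ = c 1 := by
    rw [swap_c_eq H 0, swap_c_eq H 1, hg, swap_via_inv, swap_via_mul, swap_via_mul, swap_rel0]
  have r1 : g * c 1 * g⁻¹ = c 0 := by
    rw [swap_c_eq H 0, swap_c_eq H 1, hg, swap_via_inv, swap_via_mul, swap_via_mul, swap_rel1]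
  have r2 : g * c 2 * g⁻¹ = (c 2)⁻¹ := by
    rw [swap_c_eq H 2, hg, swap_via_inv, swap_via_mul, swap_via_mul, swap_rel2, swap_via_inv]
  have rk : ∀ k, g * c k * g⁻¹ ∈ N3 S := by
    intro k
    fin_cases k
    · show g * c 0 * g⁻¹ ∈ N3 S
      rw [r0]; exact hN 1
    · show g * c 1 * g⁻¹ ∈ N3 S
      rw [r1]; exact hN 0
    · show g * c 2 * g⁻¹ ∈ N3 S
      rw [r2]; exact inv_mem (hN 2)
  have hgen : ∀ d, d ∈ S ∧ d.IsThreeCycle → g * d * g⁻¹ ∈ N3 S := by
    rintro d ⟨hd, h3⟩
    by_cases hex : ∃ k u, c k u ≠ u ∧ d u ≠ u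
    · obtain ⟨k, u, h1, h2⟩ := hex
      have hs := supp_eq pS (hS k) hd (H.t k) h3 h1 h2
      rcases eq_or_inv (H.t k) h3 hs with rfl | rfl
      · exact rk k
      · have : g * (c k)⁻¹ * g⁻¹ = (g * c k * g⁻¹)⁻¹ := by group
        rw [this]; exact inv_mem (rk k)
    · push Not at hex
      have hdis : Disjoint g d := by
        intro u
        by_cases hu : u ∈ Set.range E
        · right
          obtain ⟨⟨k, i⟩, rfl⟩ := hu
          exact hex k _ (swap_moved H k i)
        · left
          exact viaFintypeEmbedding_apply_notMem_range _ _ hu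
      have hcomm := hdis.commute
      have : g * d * g⁻¹ = d := by rw [hcomm.eq, mul_inv_cancel_right]
      rw [this]
      exact subset_closure ⟨hd, h3⟩
  have hall : ∀ h ∈ N3 S, g * h * g⁻¹ ∈ N3 S := by
    have : N3 S ≤ (N3 S).comap (MulAut.conj g).toMonoidHom := by
      rw [N3, closure_le]
      intro d hd
      exact hgen d hd
    intro h hh
    exact this hh
  refine ⟨g, mem_inf.2 ⟨?_, ?_⟩, ?_, swapPhi c p (2, 2), swap_moved H 2 2, ?_⟩
  · rw [mem_normalizer_iff]
    intro h
    refine ⟨hall h, fun hh => ?_⟩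
    have := hall _ hh
    rw [hginv] at this
    have h2 : g * g = 1 := by
      have := inv_mul_cancel g
      rwa [hginv] at this
    have h3 : g * (g * h * g) * g = h := by
      calc g * (g * h * g) * g = (g * g) * h * (g * g) := by group
        _ = h := by rw [h2]; simp
    rwa [h3] at this
  · rw [mem_alternatingGroup, hg, viaFintypeEmbedding_sign, swap_sign]
  · have h0 : p 0 = E (0, 0) := by simp [hE, swapE, swapPhi]
    have h1 : p 1 = E (1, 0) := by simp [hE, swapE, swapPhi]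
    rw [h0, h1, hg, viaFintypeEmbedding_apply_image]
    congr 1
  · show g (E (2, 2)) = E (2, 2)
    rw [hg, viaFintypeEmbedding_apply_image]
    congr 1

theorem exists_swap (pS : IsPGroup 3 S) {c₁ c₂ c₃ : Perm (Fin n)} (m₁ : c₁ ∈ S) (m₂ : c₂ ∈ S) (m₃ : c₃ ∈ S)
    (t₁ : c₁.IsThreeCycle) (t₂ : c₂.IsThreeCycle) (t₃ : c₃.IsThreeCycle) {x y z : Fin n}
    (hx : c₁ x ≠ x) (hy : c₂ y ≠ y) (hz : c₃ z ≠ z) (h12 : c₁ y = y) (h13 : c₁ z = z) (h23 : c₂ z = z) :
    ∃ g ∈ normalizer ((N3 S : Subgroup (Perm (Fin n))) : Set (Perm (Fin n))) ⊓ alternatingGroup (Fin n),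
      g x = y ∧ ∃ w, c₃ w ≠ w ∧ g w = w := by
  have key : ∀ {a b : Perm (Fin n)}, a ∈ S → b ∈ S → a.IsThreeCycle → b.IsThreeCycle →
      ∀ v, a v = v → b v ≠ v → ∀ u, a u ≠ u → b u ≠ u → False := by
    intro a b ha hb ta tb v hav hbv u hau hbu
    have hs := supp_eq pS ha hb ta tb hau hbu
    have : v ∈ a.support := by rw [hs]; exact mem_support.2 hbv
    exact mem_support.1 this hav
  have d12 := key m₁ m₂ t₁ t₂ y h12 hy
  have d13 := key m₁ m₃ t₁ t₃ z h13 hz
  have d23 := key m₂ m₃ t₂ t₃ z h23 hz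
  have H : SwapD ![c₁, c₂, c₃] ![x, y, z] := by
    refine ⟨?_, ?_, ?_⟩
    · intro k; fin_cases k
      · exact t₁
      · exact t₂
      · exact t₃
    · intro k; fin_cases k
      · exact hx
      · exact hy
      · exact hz
    · intro k l hkl u hu
      by_contra hl
      fin_cases k <;> fin_cases l
      · exact hkl rfl
      · exact d12 u hu hl
      · exact d13 u hu hl
      · exact d12 u hl hu
      · exact hkl rfl
      · exact d23 u hu hl
      · exact d13 u hl hu
      · exact d23 u hl hu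
      · exact hkl rfl
  have hS : ∀ k, (![c₁, c₂, c₃] : Fin 3 → Perm (Fin n)) k ∈ S := by
    intro k; fin_cases k
    · exact m₁
    · exact m₂
    · exact m₃
  exact swap_main pS H hS

end Cfsg.Agent.Lib.Helper52.M3
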