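import Cfsg.Agent.Lib.Helper52.M3.Defs
import Cfsg.Agent.Lib.Helper52.M3.BASIC
import Cfsg.Agent.Lib.Helper52.M3.NORM
import Cfsg.Agent.Lib.Helper52.M3.SWAP

/-! Ladder M3, rung MIX. -/

set_option autoImplicit false

namespace Cfsg.Agent.Lib.Helper52.M3

open Equiv Equiv.Perm Subgroup

variable {n : ℕ} {S M : Subgroup (Perm (Fin n))}

theorem no_mix (h : Cfg n S M) {c₁ c₂ c₃ : Perm (Fin n)} (m₁ : c₁ ∈ S) (m₂ : c₂ ∈ S) (m₃ : c₃ ∈ S)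
    (t₁ : c₁.IsThreeCycle) (t₂ : c₂.IsThreeCycle) (t₃ : c₃.IsThreeCycle) {x y z : Fin n}
    (hx : c₁ x ≠ x) (hy : c₂ y ≠ y) (hz : c₃ z ≠ z) (h13 : c₁ z = z) (hR : R M x z) (hnR : ¬ R M x y) : False := by
  have h12 : c₁ y = y := by
    by_contra hc
    exact hnR (R_supp h m₁ t₁ hx hc)
  have h23 : c₂ z = z := by
    by_contra hc
    exact hnR (R_trans hR (R_symm (R_supp h m₂ t₂ hy hc)))
  obtain ⟨g, hg, hgx, w, hw, hgw⟩ := exists_swap h.pS m₁ m₂ m₃ t₁ t₂ t₃ hx hy hz h12 h13 h23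
  have hgM : g ∈ M := normalizer_le h hg
  have hxw : R M x w := R_trans hR (R_supp h m₃ t₃ hz hw)
  have h1 : R M (g x) (g w) := R_map hgM hxw
  rw [hgx, hgw] at h1
  exact hnR (R_trans hxw (R_symm h1))

end Cfsg.Agent.Lib.Helper52.M3
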