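import Cfsg.Agent.Lib.Helper52.M3.Defs
import Cfsg.Agent.Lib.Helper52.M3.BASIC
import Cfsg.Agent.Lib.Helper52.M3.F1
import Cfsg.Agent.Lib.Helper52.M3.MIX

/-! Ladder M3, rung C3. -/

set_option autoImplicit false

namespace Cfsg.Agent.Lib.Helper52.M3

open Equiv Equiv.Perm Subgroup

variable {n : ℕ} {S M : Subgroup (Perm (Fin n))}

theorem class_le_three (h : Cfg n S M) (hcov : ∀ x, Cov S x) (x : Fin n) : {y | R M x y}.ncard ≤ 3 := by
  classical
  by_contra hcon
  push Not at hcon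
  obtain ⟨c₁, m₁, t₁, hx⟩ := hcov x
  -- a point of the class outside the support of c₁
  have hex : ∃ z, R M x z ∧ c₁ z = z := by
    by_contra hno
    push Not at hno
    have hsub : {y | R M x y} ⊆ (c₁.support : Set (Fin n)) := by
      intro y hy
      exact Finset.mem_coe.2 (Perm.mem_support.2 (hno y hy))
    have h1 := Set.ncard_le_ncard hsub (Finset.finite_toSet _)
    rw [Set.ncard_coe_finset, t₁.card_support] at h1
    omega
  obtain ⟨z, hRz, h13⟩ := hex
  obtain ⟨c₃, m₃, t₃, hz⟩ := hcov z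
  obtain ⟨u, v, huv⟩ := not_all_R h
  have hy : ∃ y, ¬ R M x y := by
    by_contra hno
    push Not at hno
    exact huv (R_trans (R_symm (hno u)) (hno v))
  obtain ⟨y, hnR⟩ := hy
  obtain ⟨c₂, m₂, t₂, hy⟩ := hcov y
  exact no_mix h m₁ m₂ m₃ t₁ t₂ t₃ hx hy hz h13 hRz hnR

end Cfsg.Agent.Lib.Helper52.M3
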