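import Cfsg.Agent.Lib.Helper52.M3.Defs
import Cfsg.Agent.Lib.Helper52.S3CSYL

/-! Ladder M3, rung CFGA. -/

set_option autoImplicit false

namespace Cfsg.Agent.Lib.Helper52.M3

open Equiv Equiv.Perm Subgroup

variable {n : ℕ} {S M : Subgroup (Perm (Fin n))}

theorem cov_of_sylow (hn : 5 ≤ n) (S₀ : Sylow 3 (alternatingGroup (Fin n))) :
    ∃ s : Finset (Fin n), s.card ≤ 2 ∧
      ∀ x, x ∉ s → Cov ((S₀ : Subgroup (alternatingGroup (Fin n))).map (alternatingGroup (Fin n)).subtype) x := by
  classical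
  have : Fact (Nat.Prime 3) := ⟨Nat.prime_three⟩
  have : Nontrivial (Fin n) := Fin.nontrivial_iff_two_le.2 (by omega)
  set Q : Subgroup (Perm (Fin n)) :=
    (S₀ : Subgroup (alternatingGroup (Fin n))).map (alternatingGroup (Fin n)).subtype with hQ
  have hcardQ : Nat.card Q = Nat.card (S₀ : Subgroup (alternatingGroup (Fin n))) :=
    Subgroup.card_map_of_injective (alternatingGroup (Fin n)).subtype_injective
  have h2 : 2 * Nat.card (alternatingGroup (Fin n)) = Nat.card (Perm (Fin n)) := by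
    rw [Nat.card_eq_fintype_card, Nat.card_eq_fintype_card]
    exact two_mul_card_alternatingGroup
  have hfac : (Nat.card (Perm (Fin n))).factorization 3 = (Nat.card (alternatingGroup (Fin n))).factorization 3 := by
    rw [← h2, Nat.factorization_mul (by norm_num) (Nat.card_pos.ne')]
    simp [Nat.factorization_eq_zero_of_not_dvd (show ¬ 3 ∣ 2 by norm_num)]
  have hcard : Nat.card Q = 3 ^ (Nat.card (Perm (Fin n))).factorization 3 := by
    rw [hcardQ, hfac]
    exact S₀.card_eq_multiplicity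
  let P : Sylow 3 (Perm (Fin n)) := Sylow.ofCard Q hcard
  obtain ⟨s, hs, hcov⟩ := Cfsg.Agent.Lib.Helper52.S3C.syl n P
  exact ⟨s, hs, fun x hx => hcov x hx⟩

end Cfsg.Agent.Lib.Helper52.M3
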