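import Cfsg.Agent.Lib.Helper52.M3.Defs
import Cfsg.Agent.Lib.Helper52.M3.CFGA

/-! Ladder M3, rung CFGB. -/

set_option autoImplicit false

namespace Cfsg.Agent.Lib.Helper52.M3

open Equiv Equiv.Perm Subgroup

variable {n : ℕ} {S M : Subgroup (Perm (Fin n))}

theorem exists_cfg (hn : 5 ≤ n) (h : Cfsg.IsPMinimal 3 (alternatingGroup (Fin n))) :
    ∃ S M : Subgroup (Perm (Fin n)), Cfg n S M := by
  classical
  have : Fact (Nat.Prime 3) := ⟨Nat.prime_three⟩
  let S₀ : Sylow 3 (alternatingGroup (Fin n)) := default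
  obtain ⟨-, M₀, ⟨hM₀, hSM₀⟩, huniq⟩ := h S₀
  have hinj := (alternatingGroup (Fin n)).subtype_injective
  refine ⟨(S₀ : Subgroup (alternatingGroup (Fin n))).map (alternatingGroup (Fin n)).subtype,
    M₀.map (alternatingGroup (Fin n)).subtype, ?_⟩
  refine ⟨hn, ?_, cov_of_sylow hn S₀, Subgroup.map_mono hSM₀, ?_, ?_, ?_⟩
  · exact S₀.isPGroup'.map _
  · exact Subgroup.map_subtype_le _
  · intro hEq
    apply hM₀.1
    rw [eq_top_iff]
    intro x _
    have hx : (x : Perm (Fin n)) ∈ M₀.map (alternatingGroup (Fin n)).subtype := by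
      rw [hEq]; exact x.2
    obtain ⟨y, hy, hyx⟩ := Subgroup.mem_map.1 hx
    have : y = x := hinj hyx
    rwa [← this]
  · intro H hSH hHA hHne
    have hH0 : H.subgroupOf (alternatingGroup (Fin n)) ≠ ⊤ := by
      intro htop
      apply hHne
      apply le_antisymm hHA
      exact Subgroup.subgroupOf_eq_top.1 htop
    obtain ⟨K, hK, hHK⟩ := (eq_top_or_exists_le_coatom (H.subgroupOf (alternatingGroup (Fin n)))).resolve_left hH0
    have hSK : (S₀ : Subgroup (alternatingGroup (Fin n))) ≤ K := by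
      refine le_trans ?_ hHK
      intro x hx
      rw [Subgroup.mem_subgroupOf]
      exact hSH (Subgroup.mem_map_of_mem _ hx)
    have hKM : K = M₀ := huniq K ⟨hK, hSK⟩
    intro x hx
    have hxA : x ∈ alternatingGroup (Fin n) := hHA hx
    refine Subgroup.mem_map.2 ⟨⟨x, hxA⟩, ?_, rfl⟩
    rw [← hKM]
    apply hHK
    rw [Subgroup.mem_subgroupOf]
    exact hx

end Cfsg.Agent.Lib.Helper52.M3
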