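import Cfsg.Agent.Lib.Helper52.M3.Defs

/-! Ladder M3, rung POW. -/

set_option autoImplicit false

namespace Cfsg.Agent.Lib.Helper52.M3

open Equiv Equiv.Perm Subgroup

variable {n : ℕ} {S M : Subgroup (Perm (Fin n))}

theorem card_pow (pS : IsPGroup 3 S) (A : Set (Fin n)) {x : Fin n} (hA : ∀ y, y ∈ A ↔ ∃ g ∈ S, g x = y) :
    ∃ a : ℕ, A.ncard = 3 ^ a := by
  have hAo : A = MulAction.orbit S x := by
    ext y
    rw [hA, MulAction.mem_orbit_iff]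
    constructor
    · rintro ⟨g, hg, rfl⟩
      exact ⟨⟨g, hg⟩, rfl⟩
    · rintro ⟨g, rfl⟩
      exact ⟨g.1, g.2, rfl⟩
  obtain ⟨a, ha⟩ := pS.card_orbit x
  refine ⟨a, ?_⟩
  rw [hAo, ← ha]
  rfl

end Cfsg.Agent.Lib.Helper52.M3
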