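import Cfsg.Agent.Lib.Helper52.M3.Defs
import Cfsg.Agent.Lib.Helper52.S3CSYL
import Cfsg.Agent.Lib.Helper14.S3CPRIM
import Cfsg.Agent.Lib.Helper69.AutAlt
import Cfsg.Agent.Lib.Helper28.Layer

set_option autoImplicit false

namespace Cfsg.Agent.Lib.Helper52.M3

open Equiv Equiv.Perm Subgroup

variable {n : ℕ} {S M : Subgroup (Perm (Fin n))}

/-- auxiliary subgroup: even permutations preserving the equivalence relation `r`. -/
def setoH (r : Setoid (Fin n)) : Subgroup (Perm (Fin n)) where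
  carrier := {g | g ∈ alternatingGroup (Fin n) ∧ ∀ u v, r u v ↔ r (g u) (g v)}
  mul_mem' := by
    rintro a b ⟨ha, ha'⟩ ⟨hb, hb'⟩
    refine ⟨mul_mem ha hb, fun u v => ?_⟩
    rw [hb' u v, ha' (b u) (b v)]
    rfl
  one_mem' := ⟨one_mem _, fun u v => Iff.rfl⟩
  inv_mem' := by
    rintro a ⟨ha, ha'⟩
    refine ⟨inv_mem ha, fun u v => ?_⟩
    rw [ha' (a⁻¹ u) (a⁻¹ v)]
    simp

theorem seto_exists_not_mem (hn : 5 ≤ n) (x y w : Fin n) : ∃ t : Fin n, t ≠ x ∧ t ≠ y ∧ t ≠ w := by
  by_contra hcon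
  push Not at hcon
  have h1 : (Finset.univ : Finset (Fin n)) ⊆ {x, y, w} := by
    intro t _
    by_cases h1 : t = x
    · simp [h1]
    by_cases h2 : t = y
    · simp [h2]
    simp [hcon t h1 h2]
  have h2 := Finset.card_le_card h1
  have h3 : ({x, y, w} : Finset (Fin n)).card ≤ 3 := Finset.card_le_three
  simp only [Finset.card_univ, Fintype.card_fin] at h2
  omega

/-- SETO. -/
theorem R_of_setoid (h : Cfg n S M) (r : Setoid (Fin n)) (hr : ∀ g ∈ S, ∀ x y, r x y → r (g x) (g y))
    (hne : ∃ u v, ¬ r u v) {x y z : Fin n} (hxy : x ≠ y) (hxz : x ≠ z) (hyz : y ≠ z) (h1 : r x y) (h2 : r x z) :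
    R M x y := by
  have hSH : S ≤ setoH r := by
    intro g hg
    refine ⟨h.MA (h.SM hg), fun u v => ⟨hr g hg u v, fun h3 => ?_⟩⟩
    have := hr g⁻¹ (S.inv_mem hg) _ _ h3
    simpa using this
  have hHA : setoH r ≤ alternatingGroup (Fin n) := fun g hg => hg.1
  obtain ⟨w, hw⟩ : ∃ w, ¬ r x w := by
    by_contra hcon
    push Not at hcon
    obtain ⟨u, v, huv⟩ := hne
    exact huv (r.trans' (r.symm' (hcon u)) (hcon v))
  have hwx : w ≠ x := by
    rintro rfl
    exact hw (r.refl' _)
  have hwy : w ≠ y := by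
    rintro rfl
    exact hw h1
  obtain ⟨t, htx, hty, htw⟩ := seto_exists_not_mem h.hn x y w
  have hHne : setoH r ≠ alternatingGroup (Fin n) := by
    intro he
    have h3 : (swap y t * swap y w).IsThreeCycle :=
      isThreeCycle_swap_mul_swap_same hty.symm hwy.symm htw
    have h4 : swap y t * swap y w ∈ setoH r := he ▸ h3.mem_alternatingGroup
    have h5 := (h4.2 x y).1 h1
    have e1 : (swap y t * swap y w) x = x := by
      rw [Perm.mul_apply, swap_apply_of_ne_of_ne hxy hwx.symm, swap_apply_of_ne_of_ne hxy htx.symm]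
    have e2 : (swap y t * swap y w) y = w := by
      rw [Perm.mul_apply, swap_apply_left, swap_apply_of_ne_of_ne hwy htw.symm]
    rw [e1, e2] at h5
    exact hw h5
  have hHM := h.uniq _ hSH hHA hHne
  have h3 : (swap x z * swap x y).IsThreeCycle :=
    isThreeCycle_swap_mul_swap_same hxz hxy hyz.symm
  have ex : (swap x z * swap x y) x = y := by
    rw [Perm.mul_apply, swap_apply_left, swap_apply_of_ne_of_ne hxy.symm hyz]
  have ey : (swap x z * swap x y) y = z := by
    rw [Perm.mul_apply, swap_apply_right, swap_apply_left]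
  have ez : (swap x z * swap x y) z = x := by
    rw [Perm.mul_apply, swap_apply_of_ne_of_ne hxz.symm hyz.symm, swap_apply_right]
  have hru : ∀ u, r u ((swap x z * swap x y) u) := by
    intro u
    by_cases hux : u = x
    · rw [hux, ex]; exact h1
    by_cases huy : u = y
    · rw [huy, ey]; exact r.trans' (r.symm' h1) h2
    by_cases huz : u = z
    · rw [huz, ez]; exact r.symm' h2
    · rw [Perm.mul_apply, swap_apply_of_ne_of_ne hux huy, swap_apply_of_ne_of_ne hux huz]
  have hcH : swap x z * swap x y ∈ setoH r := by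
    refine ⟨h3.mem_alternatingGroup, fun u v => ⟨fun h6 => ?_, fun h6 => ?_⟩⟩
    · exact r.trans' (r.symm' (hru u)) (r.trans' h6 (hru v))
    · exact r.trans' (hru u) (r.trans' h6 (r.symm' (hru v)))
  exact ⟨_, subset_closure ⟨hHM hcH, h3⟩, ex⟩

end Cfsg.Agent.Lib.Helper52.M3
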