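import Cfsg.Agent.Lib.Helper52.M3.Defs
import Cfsg.Agent.Lib.Helper52.M3.BASIC
import Cfsg.Agent.Lib.Helper52.M3.SETO

set_option autoImplicit false

namespace Cfsg.Agent.Lib.Helper52.M3

open Equiv Equiv.Perm Subgroup

variable {n : ℕ} {S M : Subgroup (Perm (Fin n))}

/-- SET. -/
theorem R_of_set (h : Cfg n S M) (A : Set (Fin n)) (hA : ∀ g ∈ S, ∀ x, x ∈ A → g x ∈ A) (hne : A ≠ Set.univ)
    (h3 : 3 ≤ A.ncard) {x y : Fin n} (hx : x ∈ A) (hy : y ∈ A) : R M x y := by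
  by_cases hxy : x = y
  · rw [hxy]
    exact R_refl M y
  obtain ⟨z, hzA, hz⟩ : ∃ z, z ∈ A ∧ z ∉ ({x, y} : Set (Fin n)) := by
    apply Set.exists_mem_notMem_of_ncard_lt_ncard _ (Set.toFinite _)
    rw [Set.ncard_pair hxy]
    omega
  have hzx : x ≠ z := by
    rintro rfl
    exact hz (by simp)
  have hzy : y ≠ z := by
    rintro rfl
    exact hz (by simp)
  let r : Setoid (Fin n) :=
    { r := fun u v => (u ∈ A ↔ v ∈ A)
      iseqv := ⟨fun _ => Iff.rfl, fun h => h.symm, fun h h' => h.trans h'⟩ }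
  have hg : ∀ g ∈ S, ∀ u, g u ∈ A ↔ u ∈ A := by
    intro g hg u
    refine ⟨fun h1 => ?_, hA g hg u⟩
    have := hA g⁻¹ (S.inv_mem hg) _ h1
    simpa using this
  have hr : ∀ g ∈ S, ∀ u v, r u v → r (g u) (g v) := by
    intro g hgS u v huv
    show g u ∈ A ↔ g v ∈ A
    rw [hg g hgS u, hg g hgS v]
    exact huv
  obtain ⟨w, hw⟩ := (Set.ne_univ_iff_exists_notMem A).1 hne
  have hne' : ∃ u v, ¬ r u v := ⟨x, w, fun h1 => hw ((show x ∈ A ↔ w ∈ A from h1).1 hx)⟩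
  exact R_of_setoid h r hr hne' hxy hzx hzy (show x ∈ A ↔ y ∈ A from iff_of_true hx hy)
    (show x ∈ A ↔ z ∈ A from iff_of_true hx hzA)

end Cfsg.Agent.Lib.Helper52.M3
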