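import Cfsg.Agent.Lib.Helper52.M3.Defs
import Cfsg.Agent.Lib.Helper52.M3.BASIC
import Cfsg.Agent.Lib.Helper52.M3.F1
import Cfsg.Agent.Lib.Helper52.M3.SET
import Cfsg.Agent.Lib.Helper52.M3.POW

set_option autoImplicit false

namespace Cfsg.Agent.Lib.Helper52.M3

open Equiv Equiv.Perm Subgroup

variable {n : ℕ} {S M : Subgroup (Perm (Fin n))}

/-- the `S`-orbit of `x` as a set -/
def cfixO (S : Subgroup (Perm (Fin n))) (x : Fin n) : Set (Fin n) := {w | ∃ g ∈ S, g x = w}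

theorem cfix_self (S : Subgroup (Perm (Fin n))) (x : Fin n) : x ∈ cfixO S x := ⟨1, S.one_mem, rfl⟩

theorem cfix_compl_inv (S : Subgroup (Perm (Fin n))) (x : Fin n) :
    ∀ g ∈ S, ∀ w, w ∈ (cfixO S x)ᶜ → g w ∈ (cfixO S x)ᶜ := by
  rintro g hg w hw ⟨k, hk, hkw⟩
  apply hw
  refine ⟨g⁻¹ * k, S.mul_mem (S.inv_mem hg) hk, ?_⟩
  rw [Perm.mul_apply, hkw]
  simp

/-- CFIX. -/
theorem case_fix (h : Cfg n S M) (e : Fin n) (he : ∀ g ∈ S, g e = e) : ∃ a : ℕ, 2 ≤ a ∧ n = 3 ^ a + 1 := by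
  have hn := h.hn
  have hcardn : Nat.card (Fin n) = n := by simp
  set A : Set (Fin n) := {e}ᶜ with hA
  have hAinv : ∀ g ∈ S, ∀ x, x ∈ A → g x ∈ A := by
    intro g hg x hx hgx
    apply hx
    have h1 : g x = e := hgx
    have h2 : g x = g e := by rw [h1, he g hg]
    exact g.injective h2
  have hAne : A ≠ Set.univ := by
    intro h1
    have : e ∈ A := h1 ▸ Set.mem_univ e
    exact this rfl
  have hAcard : A.ncard + 1 = n := by
    have := Set.ncard_add_ncard_compl ({e} : Set (Fin n))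
    rw [Set.ncard_singleton, hcardn, ← hA] at this
    omega
  have hRA : ∀ x ∈ A, ∀ y ∈ A, R M x y := fun x hx y hy =>
    R_of_set h A hAinv hAne (by omega) hx hy
  have hOA : ∀ x ∈ A, cfixO S x ⊆ A := by
    rintro x hx _ ⟨g, hg, rfl⟩
    exact hAinv g hg x hx
  have heO : ∀ x ∈ A, e ∈ (cfixO S x)ᶜ := fun x hx h1 => (hOA x hx h1) rfl
  -- if `e` is related to a point of `A`, contradiction
  have hbad : ∀ y ∈ A, ¬ R M e y := by
    intro y hy hey
    obtain ⟨u, v, huv⟩ := not_all_R h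
    have hall : ∀ w, R M w y := by
      intro w
      by_cases hw : w = e
      · rw [hw]; exact hey
      · exact hRA w hw y hy
    exact huv (R_trans (hall u) (R_symm (hall v)))
  have htrans : ∀ x ∈ A, ∀ y ∈ A, ∃ g ∈ S, g x = y := by
    intro x hx y hy
    by_contra hcon
    push Not at hcon
    have hyx : y ∈ (cfixO S x)ᶜ := by
      rintro ⟨g, hg, hgx⟩
      exact hcon g hg hgx
    have hxy : x ∈ (cfixO S y)ᶜ := by
      rintro ⟨g, hg, hgy⟩
      apply hcon g⁻¹ (S.inv_mem hg)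
      rw [← hgy]
      simp
    have hdisj : Disjoint (cfixO S x) (cfixO S y) := by
      rw [Set.disjoint_left]
      rintro w ⟨g, hg, rfl⟩ ⟨k, hk, hkw⟩
      apply hcon (k⁻¹ * g) (S.mul_mem (S.inv_mem hk) hg)
      rw [Perm.mul_apply, ← hkw]
      simp
    have h1 : (cfixO S x).ncard + (cfixO S y).ncard ≤ A.ncard := by
      rw [← Set.ncard_union_eq hdisj]
      exact Set.ncard_le_ncard (Set.union_subset (hOA x hx) (hOA y hy))
    have h2 := Set.ncard_add_ncard_compl (cfixO S x)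
    have h3 := Set.ncard_add_ncard_compl (cfixO S y)
    rw [hcardn] at h2 h3
    have h4 : 3 ≤ (cfixO S x)ᶜ.ncard ∨ 3 ≤ (cfixO S y)ᶜ.ncard := by omega
    rcases h4 with h4 | h4
    · refine hbad y hy (R_of_set h _ (cfix_compl_inv S x) ?_ h4 (heO x hx) hyx)
      intro h5
      have : x ∈ (cfixO S x)ᶜ := h5 ▸ Set.mem_univ x
      exact this (cfix_self S x)
    · refine hbad x hx (R_of_set h _ (cfix_compl_inv S y) ?_ h4 (heO y hy) hxy)
      intro h5
      have : y ∈ (cfixO S y)ᶜ := h5 ▸ Set.mem_univ y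
      exact this (cfix_self S y)
  obtain ⟨x₀, hx₀⟩ : A.Nonempty := by
    rw [← Set.ncard_pos]
    omega
  obtain ⟨a, ha⟩ := card_pow h.pS A (x := x₀) (fun y =>
    ⟨fun hy => htrans x₀ hx₀ y hy, by rintro ⟨g, hg, rfl⟩; exact hAinv g hg x₀ hx₀⟩)
  refine ⟨a, ?_, by omega⟩
  by_contra hlt
  have ha1 : a = 0 ∨ a = 1 := by omega
  rcases ha1 with rfl | rfl
  · rw [pow_zero] at ha
    omega
  · rw [pow_one] at ha
    omega

end Cfsg.Agent.Lib.Helper52.M3
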