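import Cfsg.Agent.Lib.Helper52.M3.Defs
import Cfsg.Agent.Lib.Helper3.PGroup

set_option autoImplicit false

namespace Cfsg.Agent.Lib.Helper52.M3

open Equiv Equiv.Perm Subgroup

variable {n : ℕ} {S M : Subgroup (Perm (Fin n))}

theorem exists_coarse (pS : IsPGroup 3 S) (htr : ∀ x y : Fin n, ∃ g ∈ S, g x = y) (hn : 1 < n) :
    ∃ r : Setoid (Fin n), (∀ g ∈ S, ∀ x y, r x y → r (g x) (g y)) ∧ (∃ u v, ¬ r u v) ∧
      ∀ x, n ≤ 3 * {y | r x y}.ncard := by
  classical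
  have : Fact (Nat.Prime 3) := ⟨Nat.prime_three⟩
  let x₀ : Fin n := ⟨0, by omega⟩
  let x₁ : Fin n := ⟨1, hn⟩
  have h01 : x₀ ≠ x₁ := by
    intro h
    have := congrArg Fin.val h
    simp [x₀, x₁] at this
  let St : Subgroup S :=
    { carrier := {g | (g : Perm (Fin n)) x₀ = x₀}
      mul_mem' := by
        intro a b ha hb
        change (a : Perm (Fin n)) ((b : Perm (Fin n)) x₀) = x₀
        rw [show (b : Perm (Fin n)) x₀ = x₀ from hb]
        exact ha
      one_mem' := rfl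
      inv_mem' := by
        intro a ha
        change (a : Perm (Fin n))⁻¹ x₀ = x₀
        rw [Perm.inv_eq_iff_eq]
        exact (show (a : Perm (Fin n)) x₀ = x₀ from ha).symm }
  have hSt : St ≠ ⊤ := by
    intro h
    obtain ⟨g, hg, hgx⟩ := htr x₀ x₁
    have : (⟨g, hg⟩ : S) ∈ St := by rw [h]; trivial
    exact h01 ((show g x₀ = x₀ from this).symm.trans hgx)
  obtain ⟨T, hTc, hStT⟩ := (eq_top_or_exists_le_coatom St).resolve_left hSt
  have hTn : T.Normal := Cfsg.Agent.Lib.Helper3.coatom_normal pS hTc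
  have hTi : T.index = 3 := Cfsg.Agent.Lib.Helper3.coatom_index pS hTc
  let r : Setoid (Fin n) :=
    { r := fun x y => ∃ t ∈ T, (t : Perm (Fin n)) x = y
      iseqv :=
        { refl := fun x => ⟨1, T.one_mem, rfl⟩
          symm := by
            rintro x y ⟨t, ht, rfl⟩
            exact ⟨t⁻¹, T.inv_mem ht, by simp⟩
          trans := by
            rintro x y z ⟨t, ht, rfl⟩ ⟨t', ht', rfl⟩
            exact ⟨t' * t, T.mul_mem ht' ht, rfl⟩ } }
  have hr : ∀ x y, r x y ↔ ∃ t ∈ T, (t : Perm (Fin n)) x = y := fun x y => Iff.rfl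
  refine ⟨r, ?_, ?_, ?_⟩
  · intro g hg x y hxy
    rw [hr] at hxy ⊢
    obtain ⟨t, ht, rfl⟩ := hxy
    refine ⟨(⟨g, hg⟩ : S) * t * (⟨g, hg⟩ : S)⁻¹, hTn.conj_mem t ht _, ?_⟩
    simp
  · by_contra hcon
    push Not at hcon
    apply hTc.1
    rw [eq_top_iff]
    intro g _
    obtain ⟨t, ht, htx⟩ := (hr _ _).mp (hcon x₀ ((g : Perm (Fin n)) x₀))
    have h1 : t⁻¹ * g ∈ St := by
      change (t : Perm (Fin n))⁻¹ ((g : Perm (Fin n)) x₀) = x₀
      rw [Perm.inv_eq_iff_eq]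
      exact htx.symm
    have h2 := T.mul_mem ht (hStT h1)
    simpa using h2
  · intro x
    let Φ : (S ⧸ T) × ↥{y | r x y} → Fin n := fun a => ((a.1.out : S) : Perm (Fin n)) a.2.1
    have hΦ : Function.Surjective Φ := by
      intro z
      obtain ⟨g, hg, rfl⟩ := htr x z
      let q : S ⧸ T := QuotientGroup.mk (⟨g, hg⟩ : S)
      have hq : q.out⁻¹ * (⟨g, hg⟩ : S) ∈ T := by
        rw [← QuotientGroup.eq]
        exact q.out_eq'
      refine ⟨(q, ⟨((q.out⁻¹ * (⟨g, hg⟩ : S) : S) : Perm (Fin n)) x, (hr _ _).mpr ⟨_, hq, rfl⟩⟩), ?_⟩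
      simp [Φ]
    have h1 := Nat.card_le_card_of_surjective Φ hΦ
    rw [Nat.card_prod, Nat.card_eq_fintype_card, Fintype.card_fin, Nat.card_coe_set_eq] at h1
    have h2 : Nat.card (S ⧸ T) = 3 := hTi
    rw [h2] at h1
    exact h1

end Cfsg.Agent.Lib.Helper52.M3
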