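import Mathlib
import Cfsg.Prelude.Def_LocalEven

/-! Ladder M3 (S2930: 3-minimal groups with `F* = A_n`): definitions. -/

set_option autoImplicit false

namespace Cfsg.Agent.Lib.Helper52.M3

open Equiv Equiv.Perm Subgroup

variable {n : ℕ}

/-- the subgroup generated by the 3-cycles of `M`. -/
def N3 (M : Subgroup (Perm (Fin n))) : Subgroup (Perm (Fin n)) :=
  closure {c | c ∈ M ∧ c.IsThreeCycle}

/-- `x` and `y` lie in the same orbit of `N3 M`. -/
def R (M : Subgroup (Perm (Fin n))) (x y : Fin n) : Prop := ∃ g ∈ N3 M, g x = y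

/-- `x` is moved by a 3-cycle of `S`. -/
def Cov (S : Subgroup (Perm (Fin n))) (x : Fin n) : Prop := ∃ c ∈ S, c.IsThreeCycle ∧ c x ≠ x

/-- the configuration: `S` a Sylow 3-subgroup of `A_n`, `M` the unique maximal subgroup of `A_n` over `S`. -/
structure Cfg (n : ℕ) (S M : Subgroup (Perm (Fin n))) : Prop where
  hn : 5 ≤ n
  pS : IsPGroup 3 S
  cov : ∃ s : Finset (Fin n), s.card ≤ 2 ∧ ∀ x, x ∉ s → Cov S x
  SM : S ≤ M
  MA : M ≤ alternatingGroup (Fin n)
  Mne : M ≠ alternatingGroup (Fin n)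
  uniq : ∀ H : Subgroup (Perm (Fin n)), S ≤ H → H ≤ alternatingGroup (Fin n) →
    H ≠ alternatingGroup (Fin n) → H ≤ M

end Cfsg.Agent.Lib.Helper52.M3
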