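import Cfsg.Agent.Lib.Helper52.M3.Defs
import Cfsg.Agent.Lib.Helper52.M3.POW

set_option autoImplicit false

namespace Cfsg.Agent.Lib.Helper52.M3

open Equiv Equiv.Perm Subgroup

variable {n : ℕ} {S M : Subgroup (Perm (Fin n))}

/-- FIXE. -/
theorem fixed_of_not_cov (pS : IsPGroup 3 S) (cov : ∃ s : Finset (Fin n), s.card ≤ 2 ∧ ∀ x, x ∉ s → Cov S x)
    {x : Fin n} (hx : ¬ Cov S x) : ∀ g ∈ S, g x = x := by
  classical
  obtain ⟨s, hs, hcov⟩ := cov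
  obtain ⟨a, ha⟩ := card_pow pS {y | ∃ g ∈ S, g x = y} (x := x) (fun y => Iff.rfl)
  have hsub : {y | ∃ g ∈ S, g x = y} ⊆ (s : Set (Fin n)) := by
    rintro y ⟨g, hg, rfl⟩
    by_contra hy
    obtain ⟨c, hc, h3, hmove⟩ := hcov (g x) hy
    apply hx
    refine ⟨g⁻¹ * c * g⁻¹⁻¹, S.mul_mem (S.mul_mem (S.inv_mem hg) hc) (S.inv_mem (S.inv_mem hg)), ?_, ?_⟩
    · unfold Equiv.Perm.IsThreeCycle at h3 ⊢
      rw [Equiv.Perm.cycleType_conj, h3]
    · rw [inv_inv, Equiv.Perm.mul_apply, Equiv.Perm.mul_apply]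
      intro e
      apply hmove
      rw [Equiv.Perm.inv_eq_iff_eq] at e
      exact e
  have hle : {y | ∃ g ∈ S, g x = y}.ncard ≤ 2 := by
    have := Set.ncard_le_ncard hsub s.finite_toSet
    rw [Set.ncard_coe_finset] at this
    omega
  have ha0 : a = 0 := by
    rcases a with _ | a
    · rfl
    · exfalso
      rw [ha, pow_succ] at hle
      have : 1 ≤ 3 ^ a := Nat.one_le_pow _ _ (by norm_num)
      omega
  rw [ha0, pow_zero, Set.ncard_eq_one] at ha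
  obtain ⟨b, hb⟩ := ha
  intro g hg
  have h1 : g x ∈ {y | ∃ g ∈ S, g x = y} := ⟨g, hg, rfl⟩
  have h2 : x ∈ {y | ∃ g ∈ S, g x = y} := ⟨1, S.one_mem, rfl⟩
  rw [hb, Set.mem_singleton_iff] at h1 h2
  rw [h1, h2]

end Cfsg.Agent.Lib.Helper52.M3
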