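import Cfsg.Agent.Lib.Helper52.M3.Defs
import Cfsg.Agent.Lib.Helper52.M3.POW
import Cfsg.Agent.Lib.Helper52.M3.SET
import Cfsg.Agent.Lib.Helper52.M3.C3

set_option autoImplicit false

namespace Cfsg.Agent.Lib.Helper52.M3

open Equiv Equiv.Perm Subgroup

variable {n : ℕ} {S M : Subgroup (Perm (Fin n))}

theorem case_intrans (h : Cfg n S M) (hcov : ∀ x, Cov S x) {x y : Fin n} (hxy : ∀ g ∈ S, g x ≠ y) : n = 6 := by
  have hn := h.hn
  -- orbits
  have key : ∀ w : Fin n, ∃ b : ℕ, 1 ≤ b ∧ {v | ∃ g ∈ S, g w = v}.ncard = 3 ^ b := by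
    intro w
    obtain ⟨b, hb⟩ := card_pow h.pS {v | ∃ g ∈ S, g w = v} (x := w) (fun v => Iff.rfl)
    refine ⟨b, ?_, hb⟩
    obtain ⟨c, hc, -, hcw⟩ := hcov w
    by_contra hb0
    have hb0 : b = 0 := by omega
    subst hb0
    rw [pow_zero, Set.ncard_eq_one] at hb
    obtain ⟨u, hu⟩ := hb
    have h1 : w ∈ ({u} : Set (Fin n)) := hu ▸ ⟨1, one_mem _, rfl⟩
    have h2 : c w ∈ ({u} : Set (Fin n)) := hu ▸ ⟨c, hc, rfl⟩
    rw [Set.mem_singleton_iff] at h1 h2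
    exact hcw (h2.trans h1.symm)
  set O : Set (Fin n) := {v | ∃ g ∈ S, g x = v} with hO
  have hinv : ∀ g ∈ S, ∀ v, v ∈ O → g v ∈ O := by
    rintro g hg v ⟨g', hg', rfl⟩
    exact ⟨g * g', mul_mem hg hg', rfl⟩
  have hyO : y ∉ O := fun ⟨g, hg, hgx⟩ => hxy g hg hgx
  have hxO : x ∈ O := ⟨1, one_mem _, rfl⟩
  have hOne : O ≠ Set.univ := fun hh => hyO (hh ▸ trivial)
  obtain ⟨b, hb1, hb⟩ := key x
  have hO3 : 3 ≤ O.ncard := by
    rw [hb]
    calc 3 = 3 ^ 1 := by norm_num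
      _ ≤ 3 ^ b := Nat.pow_le_pow_right (by norm_num) hb1
  have hOle : O.ncard ≤ 3 := by
    have hsub : O ⊆ {v | R M x v} := fun v hv => R_of_set h O hinv hOne hO3 hxO hv
    exact (Set.ncard_le_ncard hsub (Set.toFinite _)).trans (class_le_three h hcov x)
  have hOc : O.ncard + Oᶜ.ncard = n := by
    have := Set.ncard_add_ncard_compl O
    rwa [Nat.card_eq_fintype_card, Fintype.card_fin] at this
  have hinvc : ∀ g ∈ S, ∀ v, v ∈ Oᶜ → g v ∈ Oᶜ := by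
    intro g hg v hv hgv
    apply hv
    have := hinv g⁻¹ (inv_mem hg) _ hgv
    simpa using this
  have hOcne : Oᶜ ≠ Set.univ := by
    intro hh
    have : x ∈ Oᶜ := hh ▸ trivial
    exact this hxO
  by_cases h3 : 3 ≤ Oᶜ.ncard
  · have hsub : Oᶜ ⊆ {v | R M y v} := fun v hv => R_of_set h Oᶜ hinvc hOcne h3 hyO hv
    have := (Set.ncard_le_ncard hsub (Set.toFinite _)).trans (class_le_three h hcov y)
    omega
  · exfalso
    obtain ⟨b', hb1', hb'⟩ := key y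
    have hsub : {v | ∃ g ∈ S, g y = v} ⊆ Oᶜ := by
      rintro v ⟨g, hg, rfl⟩
      exact hinvc g hg y hyO
    have h1 := Set.ncard_le_ncard hsub (Set.toFinite _)
    have h2 : 3 ^ 1 ≤ 3 ^ b' := Nat.pow_le_pow_right (by norm_num) hb1'
    omega

end Cfsg.Agent.Lib.Helper52.M3
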