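import Cfsg.Agent.Lib.Helper52.M3.Defs

set_option autoImplicit false

namespace Cfsg.Agent.Lib.Helper52.M3

open Equiv Equiv.Perm Subgroup

variable {n : ℕ} {S M : Subgroup (Perm (Fin n))}

theorem no_normal_three {X : Type*} [Group X] [Finite X] (L : Subgroup X) (hn : 5 ≤ n)
    (e : L ≃* alternatingGroup (Fin n)) (T : Subgroup X) (hT : T ≤ L) (h3 : IsPGroup 3 T) (hN : T.Normal) : T = ⊥ := by
  classical
  have hsA : IsSimpleGroup (alternatingGroup (Fin n)) :=
    alternatingGroup.isSimpleGroup (by simpa using hn)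
  have hsL : IsSimpleGroup L := e.isSimpleGroup
  have hTn : (T.subgroupOf L).Normal := inferInstance
  rcases hTn.eq_bot_or_eq_top with h | h
  · rw [subgroupOf_eq_bot] at h
    have : T ⊓ L = ⊥ := disjoint_iff.mp h
    rwa [inf_eq_left.mpr hT] at this
  · exfalso
    rw [subgroupOf_eq_top] at h
    have hTL : T = L := le_antisymm hT h
    -- 2 divides card A_n
    have h2 : 2 ∣ Nat.card (alternatingGroup (Fin n)) := by
      have h1 : 2 * Nat.card (alternatingGroup (Fin n)) = Nat.card (Perm (Fin n)) := by
        have : Nontrivial (Fin n) := Fin.nontrivial_iff_two_le.mpr (by omega)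
        rw [Nat.card_eq_fintype_card, Nat.card_eq_fintype_card]
        exact two_mul_card_alternatingGroup
      rw [Nat.card_eq_fintype_card (α := Perm (Fin n)), Fintype.card_perm, Fintype.card_fin] at h1
      have h4 : 4 ∣ n.factorial := (by decide : 4 ∣ Nat.factorial 4).trans (Nat.factorial_dvd_factorial (by omega))
      omega
    have hc : Nat.card T = Nat.card (alternatingGroup (Fin n)) := by
      rw [hTL]; exact Nat.card_congr e.toEquiv
    have : Fact (Nat.Prime 3) := ⟨Nat.prime_three⟩
    obtain ⟨k, hk⟩ := IsPGroup.iff_card.mp h3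
    rw [← hc, hk] at h2
    have := (Nat.Prime.dvd_of_dvd_pow Nat.prime_two h2)
    omega

end Cfsg.Agent.Lib.Helper52.M3
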