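import Cfsg.Agent.Lib.Helper52.M3.Defs
import Cfsg.Agent.Lib.Helper52.M3.POW
import Cfsg.Agent.Lib.Helper52.M3.CRS
import Cfsg.Agent.Lib.Helper52.M3.SETO
import Cfsg.Agent.Lib.Helper52.M3.C3

set_option autoImplicit false

namespace Cfsg.Agent.Lib.Helper52.M3

open Equiv Equiv.Perm Subgroup

variable {n : ℕ} {S M : Subgroup (Perm (Fin n))}

theorem case_trans (h : Cfg n S M) (hcov : ∀ x, Cov S x) (htr : ∀ x y : Fin n, ∃ g ∈ S, g x = y) : n = 9 := by
  have hn := h.hn
  let x0 : Fin n := ⟨0, by omega⟩
  obtain ⟨a, ha⟩ := card_pow h.pS Set.univ (x := x0) (fun y => ⟨fun _ => htr x0 y, fun _ => trivial⟩)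
  rw [Set.ncard_univ, Nat.card_eq_fintype_card, Fintype.card_fin] at ha
  obtain ⟨r, hr, hne, hcl⟩ := exists_coarse h.pS htr (by omega)
  have hle : {y | r x0 y}.ncard ≤ 3 := by
    by_contra hlt
    push Not at hlt
    have hsub : {y | r x0 y} ⊆ {y | R M x0 y} := by
      intro y hy
      by_cases hxy : x0 = y
      · exact ⟨1, one_mem _, by simpa using hxy⟩
      · have h2 : 2 < {y | r x0 y}.ncard := by omega
        have hp : ({x0, y} : Set (Fin n)).ncard < {y | r x0 y}.ncard := by
          have := Set.ncard_insert_le x0 ({y} : Set (Fin n))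
          rw [Set.ncard_singleton] at this
          omega
        obtain ⟨z, hz, hzn⟩ := Set.exists_mem_notMem_of_ncard_lt_ncard hp (Set.toFinite _)
        have hzx : x0 ≠ z := fun hh => hzn (by simp [hh])
        have hzy : y ≠ z := fun hh => hzn (by simp [hh])
        exact R_of_setoid h r hr hne hxy hzx hzy hy hz
    have := Set.ncard_le_ncard hsub (Set.toFinite _)
    have := class_le_three h hcov x0
    omega
  have h9 : n ≤ 9 := by have := hcl x0; omega
  have ha2 : a = 2 := by
    rcases Nat.lt_trichotomy a 2 with h1 | h1 | h1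
    · interval_cases a <;> omega
    · exact h1
    · have : 3 ^ 3 ≤ 3 ^ a := Nat.pow_le_pow_right (by norm_num) h1
      omega
  subst ha2
  omega

end Cfsg.Agent.Lib.Helper52.M3
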