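import Cfsg.Agent.Lib.Helper52.M3.Defs

set_option autoImplicit false

namespace Cfsg.Agent.Lib.Helper52.M3

open Equiv Equiv.Perm Subgroup

variable {n : ℕ} {S M : Subgroup (Perm (Fin n))}

theorem pmin_of_equiv {X Y : Type*} [Group X] [Group Y] (e : X ≃* Y) {p : ℕ} (h : Cfsg.IsPMinimal p X) :
    Cfsg.IsPMinimal p Y := by
  intro S
  -- the transported Sylow subgroup
  let S' : Sylow p X := S.comapOfInjective e.toMonoidHom e.injective (by
    intro y _
    exact ⟨e.symm y, by simp⟩)
  have hS' : (S' : Subgroup X) = (S : Subgroup Y).comap e.toMonoidHom := rfl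
  obtain ⟨hnn, M, ⟨hMc, hSM⟩, huniq⟩ := h S'
  have hmapcomap : ∀ K : Subgroup Y, (K.comap e.toMonoidHom).map e.toMonoidHom = K := fun K =>
    map_comap_eq_self_of_surjective e.surjective K
  have hcomapmap : ∀ K : Subgroup X, (K.map e.toMonoidHom).comap e.toMonoidHom = K := fun K =>
    comap_map_eq_self_of_injective e.injective K
  have hco : ∀ K : Subgroup Y, IsCoatom K → IsCoatom (K.comap e.toMonoidHom) := by
    intro K hK
    refine ⟨?_, ?_⟩
    · intro h1
      apply hK.1
      rw [← hmapcomap K, h1, ← MonoidHom.range_eq_map]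
      exact MonoidHom.range_eq_top.mpr e.surjective
    · intro B hB
      have h2 : K < B.map e.toMonoidHom := by
        rw [← hmapcomap K]
        refine lt_of_le_of_ne (map_mono hB.le) ?_
        intro h3
        have := congrArg (comap e.toMonoidHom) h3
        rw [hcomapmap, hcomapmap] at this
        exact hB.ne this
      have h3 := hK.2 _ h2
      have := congrArg (comap e.toMonoidHom) h3
      rwa [hcomapmap, comap_top] at this
  have hco' : ∀ K : Subgroup X, IsCoatom K → IsCoatom (K.map e.toMonoidHom) := by
    intro K hK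
    refine ⟨?_, ?_⟩
    · intro h1
      apply hK.1
      have := congrArg (comap e.toMonoidHom) h1
      rwa [hcomapmap, comap_top] at this
    · intro B hB
      have h2 : K < B.comap e.toMonoidHom := by
        rw [← hcomapmap K]
        refine lt_of_le_of_ne (comap_mono hB.le) ?_
        intro h3
        have := congrArg (map e.toMonoidHom) h3
        rw [hmapcomap, hmapcomap] at this
        exact hB.ne this
      have h3 := hK.2 _ h2
      have := congrArg (map e.toMonoidHom) h3
      rw [hmapcomap, ← MonoidHom.range_eq_map] at this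
      rw [this]
      exact MonoidHom.range_eq_top.mpr e.surjective
  refine ⟨?_, M.map e.toMonoidHom, ⟨hco' M hMc, ?_⟩, ?_⟩
  · intro hN
    apply hnn
    rw [hS']
    exact hN.comap _
  · rw [← hmapcomap (S : Subgroup Y)]
    exact map_mono hSM
  · rintro K ⟨hKc, hSK⟩
    have := huniq (K.comap e.toMonoidHom) ⟨hco K hKc, by rw [hS']; exact comap_mono hSK⟩
    rw [← this, hmapcomap]

end Cfsg.Agent.Lib.Helper52.M3
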