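import Cfsg.Agent.Lib.Helper52.M3.Defs
import Cfsg.Agent.Lib.Helper69.AutAlt

/-! Ladder M3, rung XIN. -/

set_option autoImplicit false

namespace Cfsg.Agent.Lib.Helper52.M3

open Equiv Equiv.Perm Subgroup

variable {n : ℕ} {S M : Subgroup (Perm (Fin n))}

theorem three_elt_mem {X : Type*} [Group X] [Finite X] (L : Subgroup X) [L.Normal] (hn : 5 ≤ n)
    (e : L ≃* alternatingGroup (Fin n)) (hC : centralizer (L : Set X) ≤ L) (s : X) (k : ℕ) (hs : s ^ 3 ^ k = 1) :
    s ∈ L := by
  classical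
  set f : MulAut (alternatingGroup (Fin n)) := MulAut.congr e (MulAut.conjNormal s) with hf
  have hfpow : f ^ 3 ^ k = 1 := by
    rw [hf, ← map_pow, ← map_pow, hs, map_one, map_one]
  have hodd3 : Odd (3 ^ k) := Odd.pow (by decide)
  have hodd : Odd (orderOf f) := Odd.of_dvd_nat hodd3 (orderOf_dvd_of_pow_eq_one hfpow)
  obtain ⟨π, hπ⟩ := Cfsg.Agent.Lib.Helper69.AutAlt.mem_range_of_odd (by omega) f hodd
  have hπpow : π ^ 3 ^ k = 1 := by
    apply Cfsg.Agent.Lib.Helper69.AutAlt.conjNormal_injective (n := n) (by omega)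
    rw [map_pow, hπ, hfpow, map_one]
  have hsign : Perm.sign π = 1 := by
    have h1 : Perm.sign π ^ 3 ^ k = 1 := by rw [← map_pow, hπpow, map_one]
    rcases Int.units_eq_one_or (Perm.sign π) with h | h
    · exact h
    · rw [h, hodd3.neg_one_pow] at h1
      exact absurd h1 (by decide)
  let p : alternatingGroup (Fin n) := ⟨π, Perm.mem_alternatingGroup.2 hsign⟩
  let l : L := e.symm p
  have hkey : ∀ y : L, (l : X) * y * (l : X)⁻¹ = s * y * s⁻¹ := by
    intro y
    have h1 : e (MulAut.conjNormal s y) = f (e y) := by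
      rw [hf]
      simp [MulAut.congr]
    have h2 : f (e y) = p * e y * p⁻¹ := by
      rw [← hπ]
      apply Subtype.ext
      rw [MulAut.conjNormal_apply]
      rfl
    have h3 : e (l * y * l⁻¹) = p * e y * p⁻¹ := by
      rw [map_mul, map_mul, map_inv]
      simp [l]
    have h4 : MulAut.conjNormal s y = l * y * l⁻¹ := e.injective (by rw [h1, h2, h3])
    have h5 := congrArg (Subtype.val) h4
    rw [MulAut.conjNormal_apply] at h5
    simpa using h5.symm
  have hcen : (l : X)⁻¹ * s ∈ centralizer (L : Set X) := by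
    rw [mem_centralizer_iff]
    intro y hy
    have h1 := hkey ⟨y, hy⟩
    simp only at h1
    -- l y l⁻¹ = s y s⁻¹
    have h2 : y * ((l : X)⁻¹ * s) = (l : X)⁻¹ * ((l : X) * y * (l : X)⁻¹) * s := by group
    rw [h2, h1]
    group
  have h6 : (l : X) * ((l : X)⁻¹ * s) ∈ L := L.mul_mem l.2 (hC hcen)
  simpa using h6

end Cfsg.Agent.Lib.Helper52.M3
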