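import Cfsg.Agent.Lib.Helper52.M3.Defs

set_option autoImplicit false

namespace Cfsg.Agent.Lib.Helper52.M3

open Equiv Equiv.Perm Subgroup

variable {n : ℕ} {S M : Subgroup (Perm (Fin n))}

theorem exists_sup_sylow {X : Type*} [Group X] [Finite X] {p : ℕ} [Fact p.Prime] (hX : Cfsg.IsPMinimal p X)
    (L : Subgroup X) [L.Normal] (hns : ∀ T : Subgroup X, T ≤ L → IsPGroup p T → T.Normal → T = ⊥)
    (hp : p ∣ Nat.card L) : ∃ S : Sylow p X, L ⊔ (S : Subgroup X) = ⊤ := by
  classical
  let P : Sylow p L := default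
  have hPp : IsPGroup p ((P : Subgroup L).map L.subtype) := P.isPGroup'.map _
  obtain ⟨S, hPS⟩ := hPp.exists_le_sylow
  refine ⟨S, ?_⟩
  by_contra hne
  obtain ⟨-, M, ⟨hMc, hSM⟩, huniq⟩ := hX S
  set T : Subgroup X := (P : Subgroup L).map L.subtype with hT
  have hTL : T ≤ L := by
    rintro _ ⟨y, -, rfl⟩
    exact y.2
  -- T = S ⊓ L
  have hTeq : T = (S : Subgroup X) ⊓ L := by
    apply le_antisymm (le_inf hPS hTL)
    have h1 : IsPGroup p (((S : Subgroup X) ⊓ L).subgroupOf L) := by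
      have : IsPGroup p ((S : Subgroup X) ⊓ L : Subgroup X) := S.isPGroup'.to_le inf_le_left
      exact this.comap_of_injective _ (Subgroup.subtype_injective L)
    have h2 : (P : Subgroup L) ≤ ((S : Subgroup X) ⊓ L).subgroupOf L := by
      intro y hy
      rw [Subgroup.mem_subgroupOf]
      exact Subgroup.mem_inf.mpr ⟨hPS (Subgroup.mem_map_of_mem _ hy), y.2⟩
    have h3 := P.is_maximal' h1 h2
    intro y hy
    have hyL : y ∈ L := (Subgroup.mem_inf.mp hy).2
    have : (⟨y, hyL⟩ : L) ∈ ((S : Subgroup X) ⊓ L).subgroupOf L := by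
      rw [Subgroup.mem_subgroupOf]
      exact hy
    rw [h3] at this
    exact ⟨⟨y, hyL⟩, this, rfl⟩
  have hSN : (S : Subgroup X) ≤ normalizer (T : Set X) := by
    intro s hs
    rw [Subgroup.mem_normalizer_iff]
    intro y
    rw [hTeq, Subgroup.mem_inf, Subgroup.mem_inf]
    constructor
    · rintro ⟨h1, h2⟩
      exact ⟨mul_mem (mul_mem hs h1) (inv_mem hs), ‹L.Normal›.conj_mem y h2 s⟩
    · rintro ⟨h1, h2⟩
      constructor
      · have := mul_mem (mul_mem (inv_mem hs) h1) hs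
        simpa [mul_assoc] using this
      · have := ‹L.Normal›.conj_mem _ h2 s⁻¹
        simpa [mul_assoc] using this
  have hfr : normalizer (T : Set X) ⊔ L = ⊤ := Sylow.normalizer_sup_eq_top P
  have hNne : normalizer (T : Set X) ≠ ⊤ := by
    intro h
    have hTn : T.Normal := Subgroup.normalizer_eq_top_iff.mp h
    have hTb := hns T hTL hPp hTn
    have hPb : (P : Subgroup L) = ⊥ := by
      rw [hT] at hTb
      exact (Subgroup.map_eq_bot_iff_of_injective _ (Subgroup.subtype_injective L)).mp hTb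
    exact P.ne_bot_of_dvd_card hp hPb
  obtain ⟨M', hM'c, hNM'⟩ := (eq_top_or_exists_le_coatom _).resolve_left hNne
  obtain ⟨M'', hM''c, hLM''⟩ := (eq_top_or_exists_le_coatom _).resolve_left hne
  have e1 : M' = M := huniq M' ⟨hM'c, hSN.trans hNM'⟩
  have e2 : M'' = M := huniq M'' ⟨hM''c, le_sup_right.trans hLM''⟩
  apply hMc.1
  rw [eq_top_iff, ← hfr]
  exact sup_le (e1 ▸ hNM') (le_sup_left.trans (e2 ▸ hLM''))

end Cfsg.Agent.Lib.Helper52.M3
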