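import Cfsg.Agent.Lib.Helper52.M3.Defs
import Cfsg.Agent.Lib.Helper52.M3.FIXE
import Cfsg.Agent.Lib.Helper52.M3.CFIX
import Cfsg.Agent.Lib.Helper52.M3.INTR
import Cfsg.Agent.Lib.Helper52.M3.TRAN
import Cfsg.Agent.Lib.Helper52.M3.CFGB
import Cfsg.Agent.Lib.Helper52.M3.TRP
import Cfsg.Agent.Lib.Helper52.M3.XLS
import Cfsg.Agent.Lib.Helper52.M3.XIN
import Cfsg.Agent.Lib.Helper52.M3.NS
import Cfsg.Agent.Lib.Helper28.Layer

/-! Ladder M3 (S2930): assembly. -/

set_option autoImplicit false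

namespace Cfsg.Agent.Lib.Helper52.M3

open Equiv Equiv.Perm Subgroup

variable {n : ℕ} {S M : Subgroup (Perm (Fin n))}

theorem main (h : Cfg n S M) : n = 6 ∨ n = 9 ∨ ∃ a : ℕ, 2 ≤ a ∧ n = 3 ^ a + 1 := by
  by_cases hfix : ∃ e : Fin n, ∀ g ∈ S, g e = e
  · obtain ⟨e, he⟩ := hfix
    exact Or.inr (Or.inr (case_fix h e he))
  · have hcov : ∀ x, Cov S x := by
      intro x
      by_contra hx
      exact hfix ⟨x, fixed_of_not_cov h.pS h.cov hx⟩
    by_cases htr : ∀ x y : Fin n, ∃ g ∈ S, g x = y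
    · exact Or.inr (Or.inl (case_trans h hcov htr))
    · push Not at htr
      obtain ⟨x, y, hxy⟩ := htr
      exact Or.inl (case_intrans h hcov hxy)

theorem three_dvd_card (hn : 5 ≤ n) : 3 ∣ Nat.card (alternatingGroup (Fin n)) := by
  let a : Fin n := ⟨0, by omega⟩
  let b : Fin n := ⟨1, by omega⟩
  let c : Fin n := ⟨2, by omega⟩
  have h01 : a ≠ b := by
    intro h; simpa [a, b] using congrArg Fin.val h
  have h02 : a ≠ c := by
    intro h; simpa [a, c] using congrArg Fin.val h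
  have h12 : b ≠ c := by
    intro h; simpa [b, c] using congrArg Fin.val h
  have h3 : (swap a b * swap a c).IsThreeCycle := isThreeCycle_swap_mul_swap_same h01 h02 h12
  have ho := h3.orderOf
  have h4 : orderOf (⟨_, h3.mem_alternatingGroup⟩ : alternatingGroup (Fin n)) = 3 := by
    rw [← ho]
    exact (Subgroup.orderOf_mk _ _)
  rw [← h4]
  exact orderOf_dvd_natCard _

theorem final {X : Type*} [Group X] [Finite X] (hX : Cfsg.IsPMinimal 3 X) (n : ℕ) (hn : 5 ≤ n)
    (hF : Nonempty (↥(Cfsg.generalizedFittingSubgroup X) ≃* ↥(alternatingGroup (Fin n)))) :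
    Cfsg.generalizedFittingSubgroup X = ⊤ ∧ (n = 6 ∨ n = 9 ∨ ∃ a : ℕ, 2 ≤ a ∧ n = 3 ^ a + 1) := by
  obtain ⟨e⟩ := hF
  have hnorm : (Cfsg.generalizedFittingSubgroup X).Normal := Cfsg.Agent.Lib.Helper28.genFitting_normal
  have hC : centralizer (Cfsg.generalizedFittingSubgroup X : Set X) ≤ Cfsg.generalizedFittingSubgroup X :=
    Cfsg.Agent.Lib.Helper28.centralizer_genFitting_le
  have hp : 3 ∣ Nat.card (Cfsg.generalizedFittingSubgroup X) := by
    rw [Nat.card_congr e.toEquiv]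
    exact three_dvd_card hn
  obtain ⟨P, hP⟩ := exists_sup_sylow hX (Cfsg.generalizedFittingSubgroup X)
    (fun T hT h3 hN => no_normal_three _ hn e T hT h3 hN) hp
  have hPL : (P : Subgroup X) ≤ Cfsg.generalizedFittingSubgroup X := by
    intro s hs
    obtain ⟨k, hk⟩ := P.isPGroup' ⟨s, hs⟩
    have hk' : s ^ 3 ^ k = 1 := by
      have := congrArg Subtype.val hk
      simpa using this
    exact three_elt_mem _ hn e hC s k hk'
  have htop : Cfsg.generalizedFittingSubgroup X = ⊤ := by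
    rw [← hP]
    exact (sup_eq_left.2 hPL).symm
  refine ⟨htop, ?_⟩
  have e2 : X ≃* alternatingGroup (Fin n) :=
    (Subgroup.topEquiv.symm.trans (MulEquiv.subgroupCongr htop.symm)).trans e
  obtain ⟨S, M, hcfg⟩ := exists_cfg hn (pmin_of_equiv e2 hX)
  exact main hcfg

end Cfsg.Agent.Lib.Helper52.M3
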